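import Cfsg.Agent.H568.OC.Exc

/-!
# S4829, own characteristic: the rows of `E₆(q)`, `E₇(q)`, `E₈(q)`, `q` odd (helper568)
-/

set_option autoImplicit false
set_option linter.unusedSectionVars false

namespace Cfsg.Agent.H568.OC

open CoxeterSystem Cfsg.Agent.Nodes.RGDChev Cfsg.Agent.KFacts.RgdTau
open Cfsg.Lie Cfsg.Agent.ChevalleyStructure Cfsg.Agent.ChevalleyStructure.CoxeterGeomTypes
open Cfsg.Agent.H798.Oc.Untw Cfsg.Agent.H239.OCTab Cfsg.Agent.H770.CY

/-- **The row of a simply laced tabulated group.** -/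
theorem row_laced {D : ChevalleyDatum} {l : ℕ} {M : CoxeterMatrix (Fin l)} (hp : IsType D l M)
    (hM : ∀ i j, i ≠ j → M i j = 2 ∨ M i j = 3) {r₀ : ℕ} {L : List ℕ} (h1 : chk D l r₀ L = true)
    (h2 : chkHigh D l r₀ = true) (h3 : chkMove D l r₀ = true) (p : ℕ) [Fact p.Prime] (hp2 : p ≠ 2)
    (K : Type) [Field K] [Finite K] [CharP K p] [Fintype ↥(D.group K)] [IsSimpleGroup ↥(D.group K)]
    (hL : Cfsg.IsLieTypeChar p ↥(D.group K)) : RowA p ↥(D.group K) := by
  have hW : Finite M.Group := finite_W hp M.toCoxeterSystem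
  refine row_chev hp h1 h2 h3 p hp2 K hL fun β σ D' i j => ?_
  exact cartan_of_laced hp.isCartan hM (D'.matrix (rgd (K := K) hp M.toCoxeterSystem p)) i j

theorem laced6 : ∀ i j : Fin 6, i ≠ j → CoxeterMatrix.E₆ i j = 2 ∨ CoxeterMatrix.E₆ i j = 3 := by
  have key : ∀ i j : Fin 6, i = j ∨ CoxeterMatrix.E₆ i j = 2 ∨ CoxeterMatrix.E₆ i j = 3 := by
    intro i j
    fin_cases i <;> fin_cases j <;> first | exact Or.inl rfl | exact Or.inr (Or.inl rfl) | exact Or.inr (Or.inr rfl)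
  exact fun i j h => (key i j).resolve_left h

theorem laced7 : ∀ i j : Fin 7, i ≠ j → CoxeterMatrix.E₇ i j = 2 ∨ CoxeterMatrix.E₇ i j = 3 := by
  have key : ∀ i j : Fin 7, i = j ∨ CoxeterMatrix.E₇ i j = 2 ∨ CoxeterMatrix.E₇ i j = 3 := by
    intro i j
    fin_cases i <;> fin_cases j <;> first | exact Or.inl rfl | exact Or.inr (Or.inl rfl) | exact Or.inr (Or.inr rfl)
  exact fun i j h => (key i j).resolve_left h

theorem laced8 : ∀ i j : Fin 8, i ≠ j → CoxeterMatrix.E₈ i j = 2 ∨ CoxeterMatrix.E₈ i j = 3 := by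
  have key : ∀ i j : Fin 8, i = j ∨ CoxeterMatrix.E₈ i j = 2 ∨ CoxeterMatrix.E₈ i j = 3 := by
    intro i j
    fin_cases i <;> fin_cases j <;> first | exact Or.inl rfl | exact Or.inr (Or.inl rfl) | exact Or.inr (Or.inr rfl)
  exact fun i j h => (key i j).resolve_left h

variable {p : ℕ} [Fact p.Prime] (hp2 : p ≠ 2)

include hp2

/-- **`E₆(q)`** -/
theorem row_e6 : RowForA p (fun X _ => ∃ (F : Type) (_ : Field F) (_ : Fintype F) (_ : CharP F p),
    Nonempty (X ≃* Lie.chevE6.group F)) := by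
  rintro X _ _ _ _ _ ⟨F, _, _, _, ⟨e⟩⟩
  refine rowFor_of e fun {_ _} => ?_
  refine row_laced (M := CoxeterMatrix.E₆) (by simp [IsType, typeList]) laced6 chk_E6 high_E6 move_E6 p hp2 F ?_
  right; right; right; right; right; right; left
  exact ⟨F, inferInstance, inferInstance, inferInstance, Or.inr (Or.inr (Or.inl ⟨MulEquiv.refl _⟩))⟩

/-- **`E₇(q)`** -/
theorem row_e7 : RowForA p (fun X _ => ∃ (F : Type) (_ : Field F) (_ : Fintype F) (_ : CharP F p),
    Nonempty (X ≃* Lie.chevE7.group F)) := by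
  rintro X _ _ _ _ _ ⟨F, _, _, _, ⟨e⟩⟩
  refine rowFor_of e fun {_ _} => ?_
  refine row_laced (M := CoxeterMatrix.E₇) (by simp [IsType, typeList]) laced7 chk_E7 high_E7 move_E7 p hp2 F ?_
  right; right; right; right; right; right; left
  exact ⟨F, inferInstance, inferInstance, inferInstance, Or.inr (Or.inr (Or.inr (Or.inl ⟨MulEquiv.refl _⟩)))⟩

/-- **`E₈(q)`** -/
theorem row_e8 : RowForA p (fun X _ => ∃ (F : Type) (_ : Field F) (_ : Fintype F) (_ : CharP F p),
    Nonempty (X ≃* Lie.chevE8.group F)) := by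
  rintro X _ _ _ _ _ ⟨F, _, _, _, ⟨e⟩⟩
  refine rowFor_of e fun {_ _} => ?_
  refine row_laced (M := CoxeterMatrix.E₈) (by simp [IsType, typeList]) laced8 chk_E8 high_E8 move_E8 p hp2 F ?_
  right; right; right; right; right; right; left
  exact ⟨F, inferInstance, inferInstance, inferInstance, Or.inr (Or.inr (Or.inr (Or.inr ⟨MulEquiv.refl _⟩)))⟩

end Cfsg.Agent.H568.OC
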