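import Cfsg.Agent.H568.OC.Exc
import Cfsg.Agent.H798.Oc.F4
import Cfsg.Agent.KFacts.RgdGraphF4

/-!
# S4829, own characteristic: the rows of `F₄(q)`, `q` odd, and `G₂(q)`, `(q, 6) = 1` (helper568)
-/

set_option autoImplicit false
set_option linter.unusedSectionVars false
set_option maxHeartbeats 400000

namespace Cfsg.Agent.H568.OC

open CoxeterSystem Cfsg.Agent.ChevalleyStructure.CoxeterGeom Cfsg.Agent.Tits.Roots Cfsg.Agent.Tits.Core
  Cfsg.Agent.Nodes.Reps Cfsg.Agent.Nodes.BNOf Cfsg.Agent.Nodes.OppDec Cfsg.Agent.Nodes.RGDChev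
  Cfsg.Agent.KFacts.RgdChevCoord Cfsg.Agent.Nodes.Bruhat Cfsg.Agent.Nodes.StabComb
open Cfsg.Agent.KFacts.RgdFilt Cfsg.Agent.KFacts.RgdBorelTits Cfsg.Agent.KFacts.RgdDiag Cfsg.Agent.KFacts.RgdAut
open Cfsg.Lie Cfsg.Agent.ChevalleyStructure Cfsg.Agent.ChevalleyStructure.Elts
  Cfsg.Agent.ChevalleyStructure.NPerm Cfsg.Agent.ChevalleyStructure.CoxeterGeomTypes
open Cfsg.Agent.ChevalleyStructure.RootVec (rt)
open Cfsg.Agent.ChevalleyStructure.UnipProd
open Cfsg.Agent.ChevalleyStructure.UnipOrd (isPosRoot_iff)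
open Cfsg.Agent.H798.Oc.Sign Cfsg.Agent.H798.Oc.Ind Cfsg.Agent.H798.Oc.Main Cfsg.Agent.H798.Oc.Scal
  Cfsg.Agent.H798.Oc.Gen Cfsg.Agent.H798.Oc.Untw Cfsg.Agent.H239.OCTab Cfsg.Agent.H798.Oc.F4
open Cfsg.Agent.H770.CY

section NoGraph

variable {D : ChevalleyDatum} {l : ℕ} {M : CoxeterMatrix (Fin l)} (hp : IsType D l M) {K : Type} [Field K]

/-- two root groups which do not commute -/
theorem not_commute {r s k : ℕ} {c : ℤ} (hr : r < D.nroots) (hs : s < D.nroots) (hk : k < D.nroots) (hrs : s ≠ r)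
    (hneg : s ≠ D.neg r) (h1 : D.commTerms r s = [(k, c, 1, 1)]) (hc : (c : K) ≠ 0)
    (h2 : xG hp.inList s 1 * xG hp.inList r 1 = xG hp.inList r 1 * xG (F := K) hp.inList s 1) : False := by
  have h3 := xG_comm (F := K) hp.inList hr hs hrs hneg 1 1
  rw [h2, ChevalleyDatum.commWord, h1] at h3
  have h4 : (1 : GL D.Idx K) = wordG hp.inList
      (([(k, c, 1, 1)] : List (ℕ × ℤ × ℕ × ℕ)).map fun c => (c.1, (c.2.1 : K) * (-1) ^ c.2.2.1 * 1 ^ c.2.2.2)) := by
    have h5 := h3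
    conv_lhs at h5 => rw [← mul_one (xG hp.inList r 1 * xG hp.inList s 1)]
    exact mul_left_cancel h5
  have h6 : xG hp.inList k (-(c : K)) = 1 := by
    rw [List.map_cons, List.map_nil, wordG_cons] at h4
    have e : (c : K) * (-1) ^ 1 * 1 ^ 1 = -(c : K) := by ring
    rw [show ((k, c, 1, 1) : ℕ × ℤ × ℕ × ℕ).2.2.1 = 1 from rfl, show ((k, c, 1, 1) : ℕ × ℤ × ℕ × ℕ).2.2.2 = 1 from rfl,
      show ((k, c, 1, 1) : ℕ × ℤ × ℕ × ℕ).2.1 = c from rfl, show ((k, c, 1, 1) : ℕ × ℤ × ℕ × ℕ).1 = k from rfl, e] at h4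
    have h7 : wordG hp.inList ([] : List (ℕ × K)) = 1 := rfl
    rw [h7, mul_one] at h4
    exact h4.symm
  rw [xG_eq_one_iff hp.inList hk, neg_eq_zero] at h6
  exact hc h6

include hp in
/-- **A graph automorphism exchanging roots of different lengths does not exist.** -/
theorem no_swap {W : Type*} [Group W] (cs : CoxeterSystem M W) [Finite W] [Finite K] (p : ℕ) [Fact p.Prime] [CharP K p]
    {β : MulAut ↥(D.group K)} {σ : Equiv.Perm (Fin l)} (Dg : Diag (TT D K) (XX D l K) β σ) {i j : Fin l}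
    (hij : σ i = j) {w w' : W} (hw : ∀ hσ, hat cs σ hσ w = w') {r₁ s₁ r₂ s₂ k : ℕ} {c : ℤ}
    (hr₁ : r₁ < D.nroots) (hs₁ : s₁ < D.nroots) (hr₂ : r₂ < D.nroots) (hs₂ : s₂ < D.nroots) (hk : k < D.nroots)
    (e₁ : vec D l r₁ = sr i) (e₂ : vec D l r₂ = sr j)
    (e₃ : vec D l s₁ = rep cs hp.isCartan w (sr i)) (e₄ : vec D l s₂ = rep cs hp.isCartan w' (sr j))
    (h1 : s₁ ≠ r₁) (h2 : s₁ ≠ D.neg r₁) (h3 : s₂ ≠ r₂) (h4 : s₂ ≠ D.neg r₂)
    (h5 : D.commTerms r₁ s₁ = [(k, c, 1, 1)]) (hc : (c : K) ≠ 0) (h6 : D.commTerms r₂ s₂ = []) : False := by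
  have R := rgd (K := K) hp cs p
  have C := coords (K := K) hp cs p
  have hσ := Dg.matrix R
  have hx1 : xc hp (vec D l r₁) (1 : K) ∈ XX D l K (sr i) := by
    rw [← e₁]
    exact ((C.coord _ (isRoot_vec hp cs hr₁)).mem _).2 ⟨1, rfl⟩
  have hx2 : xc hp (vec D l s₁) (1 : K) ∈ XX D l K (rep cs hp.isCartan w (sr i)) := by
    rw [← e₃]
    exact ((C.coord _ (isRoot_vec hp cs hs₁)).mem _).2 ⟨1, rfl⟩
  have hy1 := (Dg.pos i _).2 hx1
  have hy2 := (Dg.root R hσ w i _).2 hx2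
  rw [hij, ← e₂] at hy1
  rw [hij, hw hσ, ← e₄] at hy2
  obtain ⟨a, ha⟩ := ((C.coord _ (isRoot_vec hp cs hr₂)).mem _).1 hy1
  obtain ⟨b, hb⟩ := ((C.coord _ (isRoot_vec hp cs hs₂)).mem _).1 hy2
  have hcomm : xc hp (vec D l s₂) b * xc hp (vec D l r₂) a = xc hp (vec D l r₂) a * xc hp (vec D l s₂) b := by
    apply Subtype.ext
    rw [Subgroup.coe_mul, Subgroup.coe_mul, coe_xc hp hr₂, coe_xc hp hs₂]
    exact comm_nil hp hr₂ hs₂ h3 h4 h6 a b
  rw [ha, hb, ← map_mul, ← map_mul] at hcomm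
  have h7 := β.injective hcomm
  refine not_commute hp hr₁ hs₁ hk h1 h2 h5 hc ?_
  have h8 := congrArg Subtype.val h7
  rw [Subgroup.coe_mul, Subgroup.coe_mul, coe_xc hp hr₁, coe_xc hp hs₁] at h8
  exact h8

end NoGraph

section G2

theorem isType_G2 : IsType chevG2 2 CoxeterMatrix.G₂ := by simp [IsType, typeList]

theorem sw2 (σ : Equiv.Perm (Fin 2)) : σ = 1 ∨ (σ 0 = 1 ∧ σ 1 = 0) := by
  revert σ
  decide

/-- in characteristic `≠ 3` the automorphisms of `G₂(q)` are type preserving -/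
theorem sigma_G2 {p : ℕ} [Fact p.Prime] (hp3 : p ≠ 3) {K : Type} [Field K] [Finite K] [CharP K p]
    {β : MulAut ↥(chevG2.group K)} {σ : Equiv.Perm (Fin 2)} (Dg : Diag (TT chevG2 K) (XX chevG2 2 K) β σ) : σ = 1 := by
  rcases sw2 σ with h | ⟨h0, h1⟩
  · exact h
  exfalso
  have hp := isType_G2
  obtain ⟨cs, hcs⟩ : ∃ cs, cs = (CoxeterMatrix.G₂).toCoxeterSystem := ⟨_, rfl⟩
  have hW : Finite (CoxeterMatrix.G₂).Group := finite_W hp cs
  have hn : chevG2.nroots = 12 := by decide +kernel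
  have hv : ∀ r < 12, ∀ i < 2, vec chevG2 2 r ⟨i % 2, Nat.mod_lt _ (by norm_num)⟩ = rt chevG2 r (i % 2) :=
    fun r _ i _ => rfl
  have r0 : ∀ z : ℕ, z < chevG2.nroots → ∀ i : Fin 2, rep cs hp.isCartan (cs.simple i) (vec chevG2 2 z) =
      vec chevG2 2 (chevG2.reflectRoot i z) := fun z hz i => rep_vec hp cs i hz
  have s0 : (sr 0 : Fin 2 → ℤ) = vec chevG2 2 7 := by
    decide +kernel
  have s1 : (sr 1 : Fin 2 → ℤ) = vec chevG2 2 6 := by
    decide +kernel
  have hc : ((3 : ℤ) : K) ≠ 0 := by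
    intro h
    rw [CharP.intCast_eq_zero_iff K p] at h
    have h2 : p ∣ 3 := by exact_mod_cast h
    exact hp3 ((Nat.prime_dvd_prime_iff_eq Fact.out Nat.prime_three).1 h2)
  refine no_swap hp cs p Dg (i := 0) (j := 1) h0 (w := cs.simple 0 * cs.simple 1) (w' := cs.simple 1 * cs.simple 0)
    (fun hσ => by rw [map_mul, hat_simple, hat_simple, h0, h1]) (r₁ := 7) (s₁ := 9) (r₂ := 6) (s₂ := 11) (k := 10) (c := 3)
    (by rw [hn]; norm_num) (by rw [hn]; norm_num) (by rw [hn]; norm_num) (by rw [hn]; norm_num) (by rw [hn]; norm_num)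
    s0.symm s1.symm ?_ ?_ (by norm_num) (by decide +kernel) (by norm_num) (by decide +kernel) (by decide +kernel) hc
    (by decide +kernel)
  · rw [rep_mul_apply, s0, r0 7 (by rw [hn]; norm_num), r0 _ (by rw [hn]; decide +kernel)]
    decide +kernel
  · rw [rep_mul_apply, s1, r0 6 (by rw [hn]; norm_num), r0 _ (by rw [hn]; decide +kernel)]
    decide +kernel

variable {p : ℕ} [Fact p.Prime] (hp2 : p ≠ 2) (hp3 : p ≠ 3)

include hp2 hp3

/-- **`G₂(q)`, `(q, 6) = 1`** -/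
theorem row_g2 : RowForA p (fun X _ => ∃ (F : Type) (_ : Field F) (_ : Fintype F) (_ : CharP F p), 3 ≤ Fintype.card F ∧
    Nonempty (X ≃* Lie.chevG2.group F)) := by
  rintro X _ _ _ _ _ ⟨F, _, _, _, hF, ⟨e⟩⟩
  refine rowFor_of e fun {_ _} => ?_
  refine row_chev (M := CoxeterMatrix.G₂) isType_G2 chk_G2 high_G2 move_G2 p hp2 F ?_ fun β σ Dg i j => ?_
  · right; right; right; right; right; right; left
    exact ⟨F, inferInstance, inferInstance, inferInstance, Or.inl ⟨hF, ⟨MulEquiv.refl _⟩⟩⟩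
  · rw [sigma_G2 hp3 Dg]
    rfl

end G2

section F4

/-- the subgroup `V` of `F₄(q)` -/
theorem mf_F4 (p : ℕ) [Fact p.Prime] (hp2 : p ≠ 2) (K : Type) [Field K] [Finite K] [CharP K p]
    [Fintype ↥(chevF4.group K)] : ∃ V : Subgroup ↥(chevF4.group K),
      RGD.B (CoxeterMatrix.F₄).toCoxeterSystem isType_F4.isCartan (TT chevF4 K) (XX chevF4 4 K) ≤
        Subgroup.normalizer (V : Set ↥(chevF4.group K)) ∧ Mf (Psi V) ∧
      ∀ β : MulAut ↥(chevF4.group K), (∀ r, IsRoot (CoxeterMatrix.F₄).toCoxeterSystem isType_F4.isCartan r →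
        (XX chevF4 4 K r).map β.toMonoidHom = XX chevF4 4 K r) → V.map β.toMonoidHom = V := by
  have hp := isType_F4
  obtain ⟨cs, hcs⟩ : ∃ cs, cs = (CoxeterMatrix.F₄).toCoxeterSystem := ⟨_, rfl⟩
  have hW : Finite (CoxeterMatrix.F₄).Group := finite_W hp cs
  have R := rgd (K := K) hp cs p
  have hG := KFacts.RgdFilt.GG_eq_top (T := TT chevF4 K) (G1_eq_top (K := K) hp cs)
  have C := coords (K := K) hp cs p
  have hodd : Odd (Nat.card K) := odd_card (p := p) hp2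
  have hI : IntComm cs hp.isCartan (XX chevF4 4 K) := by
    have h0 := KFacts.RgdFiltChev.intComm_GL (K := K) hp cs
    intro x y hx hy hxy hxy' a ha b hb
    have h2 := h0 x y hx hy hxy hxy' a ha b hb
    have h3 : FS (XX chevF4 4 K) {z | IB cs hp.isCartan x y z} =
        (FS (XV chevF4 4 K) {z | IB cs hp.isCartan x y z}).subgroupOf (chevF4.group K) := by
      unfold FS
      rw [Nodes.RGDLib.iSup_subgroupOf]
      rintro ⟨z, hz⟩
      exact XV_le_group hp z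
    rw [h3, Subgroup.mem_subgroupOf]
    exact h2
  set S : Set (Fin 4 → ℤ) := {x | IsRoot cs hp.isCartan x ∧ x 0 = 2} with hSdef
  have hroot : ∀ x, IsRoot cs hp.isCartan x → ∃ r < 48, vec chevF4 4 r = x := by
    intro x hx
    obtain ⟨r, hr, e⟩ := (isRoot_iff hp cs x).1 hx
    exact ⟨r, by rwa [nroots_F4] at hr, e⟩
  have hvec : ∀ r < 48, IsRoot cs hp.isCartan (vec chevF4 4 r) := fun r hr =>
    isRoot_vec hp cs (by rwa [nroots_F4])
  have hle : ∀ x, IsRoot cs hp.isCartan x → x 0 ≤ 2 := by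
    intro x hx
    obtain ⟨r, hr, rfl⟩ := hroot x hx
    exact (tab_le r hr).1
  have hSr : ∀ x ∈ S, IsRoot cs hp.isCartan x := fun x hx => hx.1
  have hS0 : ∀ x ∈ S, 0 ≤ x := by
    rintro x ⟨hx, hx0⟩
    by_contra hcon
    have h1 := (hx.not_nonneg_iff_neg).1 hcon
    have h2 : (0 : ℤ) ≤ -x 0 := h1 0
    omega
  have hSvec : ∀ r < 48, 41 ≤ r → vec chevF4 4 r ∈ S := fun r hr h41 => ⟨hvec r hr, (tab_le r hr).2.2 h41⟩
  have hS' : ∀ x ∈ S, ∃ r < 48, 41 ≤ r ∧ vec chevF4 4 r = x := by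
    rintro x ⟨hx, hx0⟩
    obtain ⟨r, hr, rfl⟩ := hroot x hx
    exact ⟨r, hr, (tab_le r hr).2.1 hx0, rfl⟩
  have hx44 : vec chevF4 4 44 ∈ S := hSvec 44 (by norm_num) (by norm_num)
  -- the stabilizer of `x₀`
  have hstab : ∀ w, rep cs hp.isCartan w (vec chevF4 4 44) = vec chevF4 4 44 → ∀ x ∈ S, rep cs hp.isCartan w x ∈ S := by
    intro w hw x hx
    obtain ⟨r, hr, h41, rfl⟩ := hS' x hx
    refine ⟨hx.1.act w, ?_⟩
    have h1 : vec chevF4 4 r + vec chevF4 4 (88 - r) = (2 : ℤ) • vec chevF4 4 44 := by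
      funext i
      exact tab_op r hr h41 i i.2
    have h2 := congrArg (rep cs hp.isCartan w) h1
    rw [map_add, map_smul, hw] at h2
    have h3 := congrFun h2 0
    have h4 := hle _ ((hvec r hr).act w)
    have h5 := hle _ ((hvec (88 - r) (by omega)).act w)
    have h6 : (rep cs hp.isCartan w (vec chevF4 4 r)) 0 + (rep cs hp.isCartan w (vec chevF4 4 (88 - r))) 0 =
        2 * (vec chevF4 4 44) 0 := h3
    have h7 : (vec chevF4 4 44) 0 = 2 := hx44.2
    omega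
  have hVL : RGD.Sup (XX chevF4 4 K) S = VL chevF4 4 K [41, 42, 43, 44, 45, 46, 47] := by
    apply le_antisymm
    · refine RGD.Sup_le fun x hx => ?_
      obtain ⟨r, hr, h41, rfl⟩ := hS' x hx
      refine le_VL ?_
      have : r = 41 ∨ r = 42 ∨ r = 43 ∨ r = 44 ∨ r = 45 ∨ r = 46 ∨ r = 47 := by omega
      simpa using this
    · refine VL_le fun r hr => RGD.le_Sup ?_
      have h1 : r = 41 ∨ r = 42 ∨ r = 43 ∨ r = 44 ∨ r = 45 ∨ r = 46 ∨ r = 47 := by simpa using hr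
      exact hSvec r (by omega) (by omega)
  have hpar : ∀ t ∈ TT chevF4 K, ∀ r < 48, 41 ≤ r →
      sv (XX chevF4 4 K (vec chevF4 4 r)) t = sv (XX chevF4 4 K (vec chevF4 4 (88 - r))) t := by
    intro t ht r hr h41
    refine sv_parity hp cs p hp2 ht (by rwa [nroots_F4]) (by rw [nroots_F4]; omega) fun i hi => ?_
    exact tab_par r hr h41 i (by rwa [rank_F4] at hi)
  have hVB : RGD.B cs hp.isCartan (TT chevF4 K) (XX chevF4 4 K) ≤
      Subgroup.normalizer ((RGD.Sup (XX chevF4 4 K) S : Subgroup ↥(chevF4.group K)) : Set ↥(chevF4.group K)) := by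
      refine sup_le (R.T_le_normalizer hSr) (RGD.Sup_le fun x hx => ?_)
      refine le_normalizer_int hI hx.1 fun y hy => ⟨hy.1, Or.inr ⟨?_, ?_⟩⟩
      · rintro rfl
        exact hy.1.neg.not_pos_neg hx.2 (neg_nonpos.2 (hS0 _ hy))
      · rintro z ⟨hz, a, b, ha, hb, e⟩
        refine ⟨hz, ?_⟩
        have h1 := hle z hz
        have h2 : z 0 = a * x 0 + b * y 0 := congrFun e 0
        have h3 : (0 : ℤ) ≤ x 0 := hx.2 0
        have h4 : y 0 = 2 := hy.2
        rw [h4] at h2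
        nlinarith
  have hfix : ∀ β : MulAut ↥(chevF4.group K), (∀ r, IsRoot cs hp.isCartan r →
      (XX chevF4 4 K r).map β.toMonoidHom = XX chevF4 4 K r) →
      (RGD.Sup (XX chevF4 4 K) S).map β.toMonoidHom = RGD.Sup (XX chevF4 4 K) S := by
      intro β hβ
      unfold RGD.Sup
      rw [Subgroup.map_iSup]
      exact iSup_congr fun z => hβ _ z.2.1
  refine ⟨RGD.Sup (XX chevF4 4 K) S, by rw [← hcs]; exact hVB, ?_, by rw [← hcs]; exact hfix⟩
  exact mf_gen R hG hp2 (x₀ := vec chevF4 4 44) hx44.1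
    (hS0 _ hx44) (V := RGD.Sup (XX chevF4 4 K) S) hVB
    (RGD.Sup_mono fun x hx => ⟨hx.1, hS0 x hx⟩) (RGD.le_Sup (X := XX chevF4 4 K) hx44)
    (by
      intro w k hk hw
      have hw' : rep cs hp.isCartan w⁻¹ (vec chevF4 4 44) = vec chevF4 4 44 := by
        conv_lhs => rw [← hw]
        rw [← rep_mul_apply, inv_mul_cancel, map_one, Module.End.one_apply]
      rw [Subgroup.mem_normalizer_iff]
      intro v
      refine ⟨fun hv => conj_mem_Sup R hk hSr (hstab w hw) hv, fun hv => ?_⟩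
      have h1 := conj_mem_Sup R hk.inv hSr (hstab w⁻¹ hw') hv
      have e : k⁻¹ * (k * v * k⁻¹) * k⁻¹⁻¹ = v := by group
      rwa [e] at h1)
    (by
      intro t ht
      rw [hVL]
      obtain ⟨-, -, h1⟩ := sv_VL hp cs p hp2 ht (L := [41, 42, 43, 44, 45, 46, 47])
        (fun s hs => (isPosRoot_iff hp.inList s).2 (tab_pos s hs)) tab_comm
      rw [h1]
      have e1 := hpar t ht 41 (by norm_num) (by norm_num)
      have e2 := hpar t ht 42 (by norm_num) (by norm_num)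
      have e3 := hpar t ht 43 (by norm_num) (by norm_num)
      norm_num at e1 e2 e3
      simp only [List.map_cons, List.map_nil, List.prod_cons, List.prod_nil]
      rw [e1, e2, e3]
      generalize sv (XX chevF4 4 K (vec chevF4 4 47)) t = a
      generalize sv (XX chevF4 4 K (vec chevF4 4 46)) t = b
      generalize sv (XX chevF4 4 K (vec chevF4 4 45)) t = c
      generalize sv (XX chevF4 4 K (vec chevF4 4 44)) t = d
      revert a b c d
      decide)
    (fun w hw => by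
      refine sep hp cs chk_F4 (K := K) (exists_nonsquare hodd) w fun t ht => ?_
      have hr := hx44.1.act (h := hp.isCartan) w
      rw [← sv_eq_one_iff hodd (C.coord _ hr) ht, ← sv_eq_one_iff hodd (C.coord _ hx44.1) ht, hw t ht])
    (move_spec hp cs (by rw [nroots_F4]; norm_num) move_F4)


/-- in odd characteristic the automorphisms of `F₄(q)` are type preserving -/
theorem sigma_F4 {p : ℕ} [Fact p.Prime] (hp2 : p ≠ 2) {K : Type} [Field K] [Finite K] [CharP K p]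
    {β : MulAut ↥(chevF4.group K)} {σ : Equiv.Perm (Fin 4)} (Dg : Diag (TT chevF4 K) (XX chevF4 4 K) β σ) : σ = 1 := by
  have hp := isType_F4
  obtain ⟨cs, hcs⟩ : ∃ cs, cs = (CoxeterMatrix.F₄).toCoxeterSystem := ⟨_, rfl⟩
  have hW : Finite (CoxeterMatrix.F₄).Group := finite_W hp cs
  rcases KFacts.RgdGraphF4.hsw_F4 σ (Dg.matrix (rgd (K := K) hp cs p)) with h | ⟨h0, h1⟩
  · exact h
  exfalso
  have hn : chevF4.nroots = 48 := by decide +kernel
  have r0 : ∀ z : ℕ, z < chevF4.nroots → ∀ i : Fin 4, rep cs hp.isCartan (cs.simple i) (vec chevF4 4 z) =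
      vec chevF4 4 (chevF4.reflectRoot i z) := fun z hz i => rep_vec hp cs i hz
  have s0 : (sr 1 : Fin 4 → ℤ) = vec chevF4 4 27 := by
    decide +kernel
  have s1 : (sr 2 : Fin 4 → ℤ) = vec chevF4 4 25 := by
    decide +kernel
  have hc2 : ((2 : ℕ) : K) ≠ 0 := by
    intro h
    rw [CharP.cast_eq_zero_iff K p] at h
    exact hp2 ((Nat.prime_dvd_prime_iff_eq Fact.out Nat.prime_two).1 h)
  refine no_swap hp cs p Dg (i := 1) (j := 2) h0 (w := cs.simple 2) (w' := cs.simple 1)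
    (fun hσ => by rw [hat_simple, h1]) (r₁ := 27) (s₁ := 28) (r₂ := 25) (s₂ := 30) (k := 30) (c := (chevF4.commTerms 27 28).headD (0, 0, 0, 0) |>.2.1)
    (by rw [hn]; norm_num) (by rw [hn]; norm_num) (by rw [hn]; norm_num) (by rw [hn]; norm_num) (by rw [hn]; norm_num)
    s0.symm s1.symm ?_ ?_ (by norm_num) (by decide +kernel) (by norm_num) (by decide +kernel) (by decide +kernel) ?_
    (by decide +kernel)
  · rw [s0, r0 27 (by rw [hn]; norm_num)]
    decide +kernel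
  · rw [s1, r0 25 (by rw [hn]; norm_num)]
    decide +kernel
  · have e : ((chevF4.commTerms 27 28).headD (0, 0, 0, 0)).2.1 = 2 ∨
        ((chevF4.commTerms 27 28).headD (0, 0, 0, 0)).2.1 = -2 := by decide +kernel
    rcases e with e | e
    · rw [e]
      exact_mod_cast hc2
    · rw [e]
      push_cast
      exact neg_ne_zero.2 (by exact_mod_cast hc2)

variable {p : ℕ} [Fact p.Prime] (hp2 : p ≠ 2)

include hp2

/-- **`F₄(q)`, `q` odd** -/
theorem row_f4 : RowForA p (fun X _ => ∃ (F : Type) (_ : Field F) (_ : Fintype F) (_ : CharP F p),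
    Nonempty (X ≃* Lie.chevF4.group F)) := by
  rintro X _ _ _ _ _ ⟨F, _, _, _, ⟨e⟩⟩
  refine rowFor_of e fun {_ _} => ?_
  obtain ⟨V, hV, hmf, hfix⟩ := mf_F4 p hp2 F
  have hp := isType_F4
  have hW : Finite (CoxeterMatrix.F₄).Group := finite_W hp (CoxeterMatrix.F₄).toCoxeterSystem
  have R := rgd (K := F) hp (CoxeterMatrix.F₄).toCoxeterSystem p
  have hG := KFacts.RgdFilt.GG_eq_top (T := TT chevF4 F) (G1_eq_top (K := F) hp (CoxeterMatrix.F₄).toCoxeterSystem)
  refine row_of_V ?_ V (hst_of R hG fun β σ Dg => ?_) (not_dvd_index R hG hV) hmf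
  · right; right; right; right; right; right; left
    exact ⟨F, inferInstance, inferInstance, inferInstance, Or.inr (Or.inl ⟨MulEquiv.refl _⟩)⟩
  · have h1 := sigma_F4 hp2 Dg
    subst h1
    exact (fix_iff).2 (hfix β fun r hr => map_of_diag R hG Dg hr)

end F4

end Cfsg.Agent.H568.OC
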